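import Mathlib.Data.Nat.Bitwise
import Mathlib.Algebra.BigOperators.Intervals
import Mathlib.Algebra.Module.Basic
import Mathlib.Tactic

/-!
# Packed vectors and walks: a small checker for linear dependencies among permuted vectors
-/

set_option autoImplicit false

namespace Cfsg.Lib.AltSec

open Finset

noncomputable section

/-- digit `i` of `c` in base `2^w` -/
def dg (w c i : ℕ) : ℕ := Nat.mod (Nat.shiftRight c (Nat.mul w i)) (Nat.pow 2 w)

/-- evaluate `n` before continuing -/
def frc {α : Type} (n : ℕ) (k : ℕ → α) : α :=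
  Nat.rec (motive := fun _ => α) (k 0) (fun m _ => k (Nat.succ m)) n

theorem frc_eq {α : Type} (n : ℕ) (k : ℕ → α) : frc n k = k n := by cases n <;> rfl

/-- bounded quantifier -/
def allB (n : ℕ) (f : ℕ → Bool) : Bool :=
  Nat.rec (motive := fun _ => Bool) true (fun x ih => and (f x) ih) n

theorem allB_spec {n : ℕ} {f : ℕ → Bool} (h : allB n f = true) : ∀ x < n, f x = true := by
  induction n with
  | zero => intro x hx; omega
  | succ n ih =>
    have h' : (f n && allB n f) = true := h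
    rw [Bool.and_eq_true] at h'
    intro x hx
    rcases Nat.lt_succ_iff_lt_or_eq.1 hx with hx | rfl
    exacts [ih h'.2 x hx, h'.1]

theorem dg_eq (w c i : ℕ) : dg w c i = (c >>> (w * i)) % 2 ^ w := rfl

theorem dg_lt (w c i : ℕ) : dg w c i < 2 ^ w := Nat.mod_lt _ (Nat.two_pow_pos w)

theorem dg_zero (w i : ℕ) : dg w 0 i = 0 := by simp [dg_eq]

theorem dg_xor (w a b j : ℕ) : dg w (a ^^^ b) j = dg w a j ^^^ dg w b j := by
  simp only [dg_eq, Nat.shiftRight_xor_distrib, Nat.xor_mod_two_pow]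

theorem dg_shl {w z : ℕ} (hz : z < 2 ^ w) (i j : ℕ) :
    dg w (z <<< (w * i)) j = if j = i then z else 0 := by
  refine Nat.eq_of_testBit_eq fun t => ?_
  rw [dg_eq, Nat.testBit_mod_two_pow, Nat.testBit_shiftRight, Nat.testBit_shiftLeft]
  have hb : ∀ s, w ≤ s → z.testBit s = false := fun s hs =>
    Nat.testBit_lt_two_pow (hz.trans_le (Nat.pow_le_pow_right two_pos hs))
  by_cases ht : t < w
  · rcases lt_trichotomy j i with h | rfl | h
    · have : ¬ w * j + t ≥ w * i := by
        have := Nat.mul_le_mul_left w (Nat.succ_le_of_lt h)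
        rw [Nat.mul_succ] at this; omega
      simp [h.ne, this]
    · simp [ht]
    · have := Nat.mul_le_mul_left w (Nat.succ_le_of_lt h)
      rw [Nat.mul_succ] at this
      rw [hb (w * j + t - w * i) (by omega)]
      simp [h.ne']
  · split_ifs
    · simp [ht, hb t (by omega)]
    · simp [ht]

theorem dg_cons_zero {w t : ℕ} (ht : t < 2 ^ w) (c : ℕ) : dg w (t + c <<< w) 0 = t := by
  rw [dg_eq, Nat.shiftLeft_eq, mul_zero, Nat.shiftRight_zero, Nat.add_mul_mod_self_right,
    Nat.mod_eq_of_lt ht]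

theorem dg_cons_succ {w t : ℕ} (ht : t < 2 ^ w) (c k : ℕ) :
    dg w (t + c <<< w) (k + 1) = dg w c k := by
  rw [dg_eq, dg_eq, mul_add, mul_one, add_comm (w * k), Nat.shiftRight_add, Nat.shiftLeft_eq,
    Nat.shiftRight_eq_div_pow (t + _), Nat.add_mul_div_right _ _ (by positivity),
    Nat.div_eq_of_lt ht, zero_add]

/-- add `c` to digit `i`, modulo `p` -/
def upd (p w acc i c : ℕ) : ℕ := frc (dg w acc i) fun old =>
  Nat.xor acc (Nat.shiftLeft (Nat.xor old (Nat.mod (Nat.add old c) p)) (Nat.mul w i))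

theorem dg_upd {p w : ℕ} (hp : 0 < p) (hw : p ≤ 2 ^ w) (acc i c j : ℕ) :
    dg w (upd p w acc i c) j = if j = i then (dg w acc i + c) % p else dg w acc j := by
  rw [upd, frc_eq]
  change dg w (acc ^^^ ((dg w acc i ^^^ ((dg w acc i + c) % p)) <<< (w * i))) j = _
  rw [dg_xor, dg_shl (Nat.xor_lt_two_pow (dg_lt _ _ _) ((Nat.mod_lt _ hp).trans_le hw))]
  split_ifs with h
  · rw [h, Nat.xor_xor_cancel_left]
  · rw [Nat.xor_zero]

/-- add `c` times the packed list `cur` -/
def addv (p w b c len cur acc : ℕ) : ℕ :=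
  Nat.rec (motive := fun _ => ℕ) acc
    (fun k ih => frc ih fun a => frc (dg b cur k) fun i => upd p w a i c) len

/-- apply the table `T` to the packed list `cur` -/
def app (b T len cur : ℕ) : ℕ :=
  Nat.rec (motive := fun _ => ℕ) 0
    (fun k ih => Nat.add (dg b T (dg b cur k)) (Nat.shiftLeft ih b)) len

/-- a walk -/
def seg (p w b : ℕ) (Ts : List ℕ) (len m ins cur acc : ℕ) : ℕ :=
  Nat.rec (motive := fun _ => ℕ → ℕ → ℕ) (fun _ acc => acc)
    (fun k ih cur acc => frc (dg 8 ins k) fun d => frc (Nat.mod d 8) fun c =>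
      frc (cond (Nat.beq c 0) acc (addv p w b c len cur acc)) fun acc' =>
      frc (Ts.getD (Nat.div d 8) 0) fun T => frc (app b T len cur) fun cur' => ih cur' acc')
    m cur acc

variable {V : Type*} [AddCommGroup V] (φ : ℕ → V)

/-- sum over a packed list -/
def Psi (b len o : ℕ) : V := ∑ k ∈ range len, φ (dg b o k)

/-- sum over a packed coefficient vector -/
def Phi (b w acc : ℕ) : V := ∑ i ∈ range (2 ^ b), dg w acc i • φ i

variable {φ} {p w b : ℕ}

theorem Phi_zero : Phi φ b w 0 = 0 := by simp [Phi, dg_zero]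

theorem Phi_upd (hV : ∀ x : V, p • x = 0) (hp : 0 < p) (hw : p ≤ 2 ^ w) (acc c : ℕ) {i : ℕ}
    (hi : i < 2 ^ b) : Phi φ b w (upd p w acc i c) = Phi φ b w acc + c • φ i := by
  have hi' := mem_range.2 hi
  rw [Phi, Phi, ← add_sum_erase _ _ hi', ← add_sum_erase _ _ hi', dg_upd hp hw, if_pos rfl,
    add_right_comm, ← add_smul]
  congr 1
  · conv_rhs => rw [← Nat.mod_add_div (dg w acc i + c) p, add_smul, mul_smul, hV, add_zero]
  · exact sum_congr rfl fun j hj => by rw [dg_upd hp hw, if_neg (ne_of_mem_erase hj)]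

theorem Phi_addv (hV : ∀ x : V, p • x = 0) (hp : 0 < p) (hw : p ≤ 2 ^ w) (c len cur acc : ℕ) :
    Phi φ b w (addv p w b c len cur acc) = Phi φ b w acc + c • Psi φ b len cur := by
  induction len with
  | zero => simp [addv, Psi]
  | succ k ih =>
    change Phi φ b w (frc (addv p w b c k cur acc) fun a => frc (dg b cur k) fun i =>
      upd p w a i c) = _
    rw [frc_eq, frc_eq, Phi_upd hV hp hw _ _ (dg_lt _ _ _), ih, Psi, Psi, sum_range_succ,
      smul_add, add_assoc]

theorem Psi_app {T : ℕ} (f : V →+ V) (hf : ∀ i < 2 ^ b, f (φ i) = φ (dg b T i)) (len cur : ℕ) :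
    Psi φ b len (app b T len cur) = f (Psi φ b len cur) := by
  induction len with
  | zero => simp [Psi]
  | succ k ih =>
    change Psi φ b (k + 1) (dg b T (dg b cur k) + app b T k cur <<< b) = _
    rw [Psi, sum_range_succ', dg_cons_zero (dg_lt _ _ _), Psi, sum_range_succ, map_add,
      hf _ (dg_lt _ _ _)]
    congr 1
    rw [← Psi, ← ih, Psi]
    exact sum_congr rfl fun j _ => by rw [dg_cons_succ (dg_lt _ _ _)]

/-- every table is induced by an additive map -/
def Good (φ : ℕ → V) (b : ℕ) (Ts : List ℕ) : Prop :=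
  ∀ g, ∃ f : V →+ V, ∀ i < 2 ^ b, f (φ i) = φ (dg b (Ts.getD g 0) i)

theorem seg_ok (hV : ∀ x : V, p • x = 0) (hp : 0 < p) (hw : p ≤ 2 ^ w) {Ts : List ℕ}
    (hT : Good φ b Ts) {len m ins cur acc : ℕ} (h1 : Psi φ b len cur = 0)
    (h2 : Phi φ b w acc = 0) : Phi φ b w (seg p w b Ts len m ins cur acc) = 0 := by
  induction m generalizing cur acc with
  | zero => exact h2
  | succ k ih =>
    change Phi φ b w (frc (dg 8 ins k) fun d => frc (Nat.mod d 8) fun c =>
      frc (cond (Nat.beq c 0) acc (addv p w b c len cur acc)) fun acc' =>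
      frc (Ts.getD (Nat.div d 8) 0) fun T => frc (app b T len cur) fun cur' =>
        seg p w b Ts len k ins cur' acc') = 0
    simp only [frc_eq]
    obtain ⟨f, hf⟩ := hT (Nat.div (dg 8 ins k) 8)
    refine ih (by rw [Psi_app f hf, h1, map_zero]) ?_
    cases Nat.beq (Nat.mod (dg 8 ins k) 8) 0
    · rw [cond_false, Phi_addv hV hp hw, h1, h2, smul_zero, add_zero]
    · exact h2

theorem seg_ok' (hV : ∀ x : V, p • x = 0) (hp : 0 < p) (hw : p ≤ 2 ^ w) {Ts : List ℕ}
    (hT : Good φ b Ts) {len m ins cur acc acc' : ℕ}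
    (h : Nat.beq (seg p w b Ts len m ins cur acc) acc' = true) (h1 : Psi φ b len cur = 0)
    (h2 : Phi φ b w acc = 0) : Phi φ b w acc' = 0 :=
  Nat.eq_of_beq_eq_true h ▸ seg_ok hV hp hw hT h1 h2

theorem Psi_eq (hV : ∀ x : V, p • x = 0) (hp : 0 < p) (hw : p ≤ 2 ^ w) {len o len' o' : ℕ}
    (h : Nat.beq (addv p w b 1 len o 0) (addv p w b 1 len' o' 0) = true) :
    Psi φ b len o = Psi φ b len' o' := by
  have := congrArg (Phi φ b w) (Nat.eq_of_beq_eq_true h)
  simpa only [Phi_addv hV hp hw, Phi_zero, zero_add, one_smul] using this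

theorem Phi_sub (hV : ∀ x : V, p • x = 0) (hp : 0 < p) (hw : p ≤ 2 ^ w) {acc len o len' o' : ℕ}
    (h : Nat.beq (addv p w b 1 len' o' acc) (addv p w b 1 len o 0) = true) :
    Phi φ b w acc = Psi φ b len o - Psi φ b len' o' := by
  have := congrArg (Phi φ b w) (Nat.eq_of_beq_eq_true h)
  simp only [Phi_addv hV hp hw, Phi_zero, zero_add, one_smul] at this
  exact eq_sub_of_add_eq this

end

end Cfsg.Lib.AltSec
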