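import Cfsg.Agent.AltSec.Pr
import Cfsg.Agent.AltSec.Lin

/-!
# Coset tables for modules of small alternating groups

Permutations are coded as base-16 numbers.  `Z ρ L` says that no non-zero vector is fixed by
all the elements coded in `L`.
-/

set_option autoImplicit false

namespace Cfsg.Lib.AltSec

open Subgroup Equiv
open scoped commutatorElement

noncomputable section

variable {n : ℕ}

/-- the code of the identity -/
def idc : ℕ := 0x9876543210

/-- `c` codes `g` -/
def Rep (g : Al n) (c : ℕ) : Prop := ∀ x : Fin n, ((g : Perm (Fin n)) x : ℕ) = dg 4 c x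

/-- `c` codes an element of `K` -/
def In (K : Subgroup (Al n)) (c : ℕ) : Prop := ∃ g ∈ K, Rep g c

/-- all of `L` code elements of `K` -/
def InAll (K : Subgroup (Al n)) (L : List ℕ) : Prop := ∀ c ∈ L, In K c

theorem Rep.uniq {g h : Al n} {c : ℕ} (hg : Rep g c) (hh : Rep h c) : g = h :=
  Subtype.ext (Equiv.ext fun x => Fin.ext ((hg x).trans (hh x).symm))

theorem rep_one (hn : n ≤ 10) : Rep (1 : Al n) idc := fun x => by
  have : ∀ y < 10, y = dg 4 idc y := by decide
  exact this x (by omega)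

theorem InAll.getD (hn : n ≤ 10) {K : Subgroup (Al n)} {L : List ℕ} (h : InAll K L) (k : ℕ) :
    In K (L.getD k idc) := by
  rw [List.getD_eq_getElem?_getD]
  cases e : L[k]? with
  | none => exact ⟨1, one_mem _, rep_one hn⟩
  | some c => exact h c (List.mem_of_getElem? e)

/-- evaluate a product of codes -/
def ev (cs : List ℕ) (x : ℕ) : ℕ := List.rec (motive := fun _ => ℕ) x (fun c _ ih => dg 4 c ih) cs

/-- a word in the codes `L` -/
def wd (L w : List ℕ) : List ℕ := w.map fun k => L.getD k idc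

theorem evw (hn : n ≤ 10) {K : Subgroup (Al n)} {L : List ℕ} (h : InAll K L) (w : List ℕ) :
    ∃ g ∈ K, ∀ x : Fin n, ((g : Perm (Fin n)) x : ℕ) = ev (wd L w) x := by
  induction w with
  | nil => exact ⟨1, one_mem _, fun _ => rfl⟩
  | cons k w ih =>
    obtain ⟨g, hg, e⟩ := ih
    obtain ⟨a, ha, ea⟩ := h.getD hn k
    refine ⟨a * g, mul_mem ha hg, fun x => ?_⟩
    change (((a : Perm (Fin n)) ((g : Perm (Fin n)) x) : Fin n) : ℕ) = dg 4 _ (ev (wd L w) x)
    rw [ea, e]

/-- simultaneous check along two lists -/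
def all2 {β : Type} (f : ℕ → β → Bool) (L : List ℕ) : List β → Bool :=
  List.rec (motive := fun _ => List β → Bool) (fun _ => true)
    (fun c _ ih l => List.rec (motive := fun _ => Bool) false (fun q l' _ => and (f c q) (ih l')) l) L

theorem all2_spec {β : Type} {f : ℕ → β → Bool} {L : List ℕ} {l : List β}
    (h : all2 f L l = true) : ∀ c ∈ L, ∃ q, f c q = true := by
  induction L generalizing l with
  | nil => simp
  | cons c L ih =>
    cases l with
    | nil => exact absurd h Bool.false_ne_true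
    | cons q l =>
      have h' : (f c q && all2 f L l) = true := h
      rw [Bool.and_eq_true] at h'
      intro d hd
      rcases List.mem_cons.1 hd with rfl | hd
      exacts [⟨q, h'.1⟩, ih h'.2 d hd]

/-- pointwise equality below `n` -/
def eqB (n : ℕ) (f g : ℕ → ℕ) : Bool := allB n fun x => Nat.beq (f x) (g x)

theorem eqB_spec {f g : ℕ → ℕ} (h : eqB n f g = true) (x : Fin n) : f x = g x :=
  Nat.eq_of_beq_eq_true (allB_spec h x x.2)

/-- the codes `S` are words in `L` -/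
def expOK (n : ℕ) (L S : List ℕ) (ws : List (List ℕ)) : Bool :=
  all2 (fun c w => eqB n (ev (wd L w)) (dg 4 c)) S ws

theorem InAll.exp (hn : n ≤ 10) {K : Subgroup (Al n)} {L S : List ℕ} {ws : List (List ℕ)}
    (h : InAll K L) (e : expOK n L S ws = true) : InAll K S := fun c hc => by
  obtain ⟨w, hw⟩ := all2_spec e c hc
  obtain ⟨g, hg, eg⟩ := evw hn h w
  exact ⟨g, hg, fun x => (eg x).trans (eqB_spec hw x)⟩

/-- a product of transpositions -/
def evs (l : List (ℕ × ℕ)) (x : ℕ) : ℕ := List.rec (motive := fun _ => ℕ) x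
  (fun q _ y => cond (Nat.beq y q.1) q.2 (cond (Nat.beq y q.2) q.1 y)) l

theorem evs_spec (l : List (ℕ × ℕ)) (h : ∀ q ∈ l, q.1 < q.2 ∧ q.2 < n) :
    ∃ g : Perm (Fin n), Perm.sign g = (-1) ^ l.length ∧ ∀ x, (g x : ℕ) = evs l x := by
  induction l with
  | nil => exact ⟨1, by simp, fun _ => rfl⟩
  | cons q l ih =>
    obtain ⟨g, hg, e⟩ := ih fun q hq => h q (List.mem_cons_of_mem _ hq)
    obtain ⟨h1, h2⟩ := h q List.mem_cons_self
    refine ⟨swap ⟨q.1, h1.trans h2⟩ ⟨q.2, h2⟩ * g, ?_, fun x => ?_⟩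
    · rw [Perm.sign_mul, Perm.sign_swap (by simp [h1.ne]), hg, List.length_cons, pow_succ']
    · change _ = cond (Nat.beq (evs l x) q.1) q.2 (cond (Nat.beq (evs l x) q.2) q.1 (evs l x))
      rw [← e, Perm.mul_apply, swap_apply_def]
      simp only [Fin.ext_iff, Bool.cond_eq_ite, Nat.beq_eq]
      split_ifs <;> rfl

/-- the codes `S` are even permutations -/
def okB (n : ℕ) (S : List ℕ) (ls : List (List (ℕ × ℕ))) : Bool :=
  all2 (fun c l => (l.all fun q => decide (q.1 < q.2 ∧ q.2 < n)) &&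
    decide (l.length % 2 = 0) && eqB n (evs l) (dg 4 c)) S ls

theorem inAll_top {S : List ℕ} {ls : List (List (ℕ × ℕ))} (e : okB n S ls = true) :
    InAll (⊤ : Subgroup (Al n)) S := fun c hc => by
  obtain ⟨l, hl⟩ := all2_spec e c hc
  simp only [Bool.and_eq_true, List.all_eq_true, decide_eq_true_eq] at hl
  obtain ⟨g, hg, eg⟩ := evs_spec l hl.1.1
  rw [(Nat.even_iff.2 hl.1.2).neg_one_pow] at hg
  exact ⟨⟨g, Perm.mem_alternatingGroup.2 hg⟩, mem_top _, fun x => (eg x).trans (eqB_spec hl.2 x)⟩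

variable {p : ℕ} {V : Type*} [AddCommGroup V] [Module (ZMod p) V]
  (ρ : Representation (ZMod p) (Al n) V)

/-- the stabiliser of a vector -/
def stab (w : V) : Subgroup (Al n) where
  carrier := {g | ρ g w = w}
  mul_mem' {a b} ha hb := by
    rw [Set.mem_ofPred_eq, map_mul, Module.End.mul_apply, hb, ha]
  one_mem' := by rw [Set.mem_ofPred_eq, map_one, Module.End.one_apply]
  inv_mem' {a} ha := by
    rw [Set.mem_ofPred_eq] at ha ⊢
    conv_lhs => rw [← ha, ← Module.End.mul_apply, ← map_mul, inv_mul_cancel, map_one]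
    rfl

/-- no non-zero vector is fixed by `L` -/
def Z (L : List ℕ) : Prop := ∀ w, InAll (stab ρ w) L → w = 0

open Classical in
/-- the translate of `v` by the element coded by `c` -/
def psi (v : V) (c : ℕ) : V := if h : ∃ g : Al n, Rep g c then ρ h.choose v else 0

/-- the translates of `v` along the table `R` -/
def phi (v : V) (R i : ℕ) : V := psi ρ v (dg 40 R i)

variable {ρ}

theorem mem_stab {w : V} {g : Al n} : g ∈ stab ρ w ↔ ρ g w = w := Iff.rfl

theorem psi_rep {v : V} {g : Al n} {c : ℕ} (h : Rep g c) : psi ρ v c = ρ g v := by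
  have h' : ∃ g : Al n, Rep g c := ⟨g, h⟩
  rw [psi, dif_pos h', h'.choose_spec.uniq h]

theorem psi_zero (hn : 2 ≤ n) (v : V) : psi ρ v 0 = 0 := dif_neg fun ⟨g, hg⟩ => by
  have h := (hg ⟨0, by omega⟩).trans ((dg_zero _ _).trans ((hg ⟨1, by omega⟩).trans
    (dg_zero _ _)).symm)
  simpa using (g : Perm (Fin n)).injective (Fin.ext h)

/-- `c * ri = rj * s` -/
def chk (n c ri rj s : ℕ) : Bool := frc ri fun ri => frc rj fun rj =>
  or (and (Nat.beq ri 0) (Nat.beq rj 0)) (frc s fun s => allB n fun x => frc (dg 4 ri x) fun y =>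
    and (Nat.blt y n) (Nat.beq (dg 4 c y) (dg 4 rj (dg 4 s x))))

theorem act (hn : 2 ≤ n) {v : V} {g : Al n} {c ri rj s : ℕ} (hg : Rep g c)
    (hs : In (stab ρ v) s) (h : chk n c ri rj s = true) : ρ g (psi ρ v ri) = psi ρ v rj := by
  simp only [chk, frc_eq, Bool.or_eq_true, Bool.and_eq_true, Nat.beq_eq] at h
  rcases h with ⟨rfl, rfl⟩ | h
  · rw [psi_zero hn, map_zero]
  have h' : ∀ x : Fin n, dg 4 ri x < n ∧ dg 4 c (dg 4 ri x) = dg 4 rj (dg 4 s x) := fun x => by
    simpa only [Bool.and_eq_true, Nat.beq_eq, Nat.blt_eq] using allB_spec h x x.2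
  obtain ⟨t, ht, et⟩ := hs
  by_cases hi : ∃ a : Al n, Rep a ri
  · obtain ⟨a, ha⟩ := hi
    have : Rep (g * a * t⁻¹) rj := fun y => by
      obtain ⟨x, rfl⟩ := (t : Perm (Fin n)).surjective y
      rw [et, ← (h' x).2, ← ha, ← hg]
      simp
    rw [psi_rep ha, psi_rep this, map_mul, map_mul, Module.End.mul_apply, Module.End.mul_apply,
      mem_stab.1 (inv_mem ht)]
  · rw [psi, dif_neg hi, map_zero, psi, dif_neg]
    rintro ⟨a, ha⟩
    refine hi ⟨g⁻¹ * a * t, fun x => ?_⟩
    have : (g : Perm (Fin n)) ⟨_, (h' x).1⟩ = (a : Perm (Fin n)) ((t : Perm (Fin n)) x) :=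
      Fin.ext (by rw [hg, ha, et]; exact (h' x).2)
    simp [← this]

/-- a full table -/
def tabOK (n b R : ℕ) (S : List ℕ) (c T K : ℕ) : Bool := allB (Nat.pow 2 b) fun i =>
  chk n c (dg 40 R i) (dg 40 R (dg b T i)) (S.getD (dg 8 K i) idc)

/-- a table on a packed list -/
def locOK (n b R : ℕ) (S : List ℕ) (c len o o' K : ℕ) : Bool := allB len fun k =>
  chk n c (dg 40 R (dg b o k)) (dg 40 R (dg b o' k)) (S.getD (dg 8 K k) idc)

variable {v : V} {b w R : ℕ} {S : List ℕ}

theorem good_nil (hn : 2 ≤ n) (h : Nat.beq (dg 40 R 0) 0 = true) : Good (phi ρ v R) b [] :=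
  fun _ => ⟨0, fun i _ => by
    rw [List.getD_nil, dg_zero, phi, phi, Nat.eq_of_beq_eq_true h, psi_zero hn]; rfl⟩

theorem good_cons (hn : 2 ≤ n) (hn' : n ≤ 10) (hv : InAll (stab ρ v) S) {c T K : ℕ}
    (hc : In (⊤ : Subgroup (Al n)) c) (h : tabOK n b R S c T K = true) {Ts : List ℕ}
    (hT : Good (phi ρ v R) b Ts) : Good (phi ρ v R) b (T :: Ts) := fun k => by
  cases k with
  | zero =>
    obtain ⟨g, -, hg⟩ := hc
    exact ⟨(ρ g).toAddMonoidHom, fun i hi => act hn hg (hv.getD hn' _) (allB_spec h i hi)⟩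
  | succ k => exact hT k

theorem loc_ok (hn : 2 ≤ n) (hn' : n ≤ 10) (hv : InAll (stab ρ v) S) {c len o o' K : ℕ}
    {g : Al n} (hg : Rep g c) (h : locOK n b R S c len o o' K = true) :
    ρ g (Psi (phi ρ v R) b len o) = Psi (phi ρ v R) b len o' := by
  rw [Psi, Psi, map_sum]
  exact Finset.sum_congr rfl fun k hk =>
    act hn hg (hv.getD hn' _) (allB_spec h k (Finset.mem_range.1 hk))

theorem pV (x : V) : p • x = 0 := by
  rw [← Nat.cast_smul_eq_nsmul (ZMod p), ZMod.natCast_self, zero_smul]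

/-- the codes `L` preserve the packed list `o` -/
def relOK (n p w b R : ℕ) (S L : List ℕ) (len o : ℕ) (loc : List (ℕ × ℕ)) : Bool :=
  all2 (fun c q => and (locOK n b R S c len o q.1 q.2)
    (Nat.beq (addv p w b 1 len q.1 0) (addv p w b 1 len o 0))) L loc

theorem rel_ok (hn : 2 ≤ n) (hn' : n ≤ 10) (hp : 0 < p) (hw : p ≤ 2 ^ w)
    (hv : InAll (stab ρ v) S) {L : List ℕ} (hL : InAll (⊤ : Subgroup (Al n)) L) {len o : ℕ}
    {loc : List (ℕ × ℕ)} (h : relOK n p w b R S L len o loc = true) :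
    InAll (stab ρ (Psi (phi ρ v R) b len o)) L := fun c hc => by
  obtain ⟨q, hq⟩ := all2_spec h c hc
  rw [Bool.and_eq_true] at hq
  obtain ⟨g, -, hg⟩ := hL c hc
  exact ⟨g, (loc_ok hn hn' hv hg hq.1).trans (Psi_eq pV hp hw hq.2), hg⟩

theorem Psi_one (hn' : n ≤ 10) (hb : 0 < b) (h : Nat.beq (dg 40 R 1) idc = true) :
    Psi (phi ρ v R) b 1 1 = v := by
  have : dg b 1 0 = 1 := Nat.mod_eq_of_lt (Nat.one_lt_two_pow hb.ne')
  rw [Psi, Finset.sum_range_one, this, phi, Nat.eq_of_beq_eq_true h, psi_rep (rep_one hn'),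
    map_one, Module.End.one_apply]

theorem fin_z (hn' : n ≤ 10) (hb : 0 < b) (hp : 0 < p) (hw : p ≤ 2 ^ w)
    (h : Nat.beq (dg 40 R 1) idc = true) {acc : ℕ}
    (e : Nat.beq (addv p w b 1 0 0 acc) (addv p w b 1 1 1 0) = true)
    (h0 : Phi (phi ρ v R) b w acc = 0) : v = 0 := by
  rw [Phi_sub pV hp hw e, Psi_one hn' hb h, Psi, Finset.sum_range_zero, sub_zero] at h0
  exact h0

/-- vectors fixed by `L` are fixed by `t` -/
def Imp (ρ : Representation (ZMod p) (Al n) V) (L : List ℕ) (t : ℕ) : Prop :=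
  ∀ w, InAll (stab ρ w) L → In (stab ρ w) t

theorem fin_imp (hn : 2 ≤ n) (hn' : n ≤ 10) (hb : 0 < b) (hp : 0 < p) (hw : p ≤ 2 ^ w)
    (hv : InAll (stab ρ v) S) (h : Nat.beq (dg 40 R 1) idc = true) {acc t j K : ℕ}
    (ht : In (⊤ : Subgroup (Al n)) t) (e₁ : locOK n b R S t 1 1 j K = true)
    (e : Nat.beq (addv p w b 1 1 j acc) (addv p w b 1 1 1 0) = true)
    (h0 : Phi (phi ρ v R) b w acc = 0) : In (stab ρ v) t := by
  obtain ⟨g, -, hg⟩ := ht
  rw [Phi_sub pV hp hw e, ← loc_ok hn hn' hv hg e₁, Psi_one hn' hb h, sub_eq_zero] at h0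
  exact ⟨g, h0.symm, hg⟩

theorem fix_of (hn : 2 ≤ n) (hn' : n ≤ 10) (hp : 0 < p) (hw : p ≤ 2 ^ w)
    (hv : InAll (stab ρ v) S) {acc t len o o' K : ℕ}
    (ht : In (⊤ : Subgroup (Al n)) t) (e₁ : locOK n b R S t len o o' K = true)
    (e : Nat.beq (addv p w b 1 len o' acc) (addv p w b 1 len o 0) = true)
    (h0 : Phi (phi ρ v R) b w acc = 0) : In (stab ρ (Psi (phi ρ v R) b len o)) t := by
  obtain ⟨g, -, hg⟩ := ht
  rw [Phi_sub pV hp hw e, ← loc_ok hn hn' hv hg e₁, sub_eq_zero] at h0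
  exact ⟨g, h0.symm, hg⟩

theorem InAll.nil {K : Subgroup (Al n)} : InAll K [] := fun _ h => absurd h List.not_mem_nil

theorem InAll.cons {K : Subgroup (Al n)} {c : ℕ} {L : List ℕ} (h : In K c) (hL : InAll K L) :
    InAll K (c :: L) := List.forall_mem_cons.2 ⟨h, hL⟩

theorem rel_imp (hn : 2 ≤ n) (hn' : n ≤ 10) (hp : 0 < p) (hw : p ≤ 2 ^ w)
    (hv : InAll (stab ρ v) S) {L : List ℕ} {t : ℕ} (hI : Imp ρ L t)
    (hL : InAll (⊤ : Subgroup (Al n)) L) {len o l₁ o₁ o₂ K : ℕ}
    {loc : List (ℕ × ℕ)} (h : relOK n p w b R S L l₁ o₁ loc = true)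
    (e₁ : locOK n b R S t l₁ o₁ o₂ K = true)
    (e : Nat.beq (addv p w b 1 l₁ o₂ (addv p w b 1 len o 0)) (addv p w b 1 l₁ o₁ 0) = true) :
    Psi (phi ρ v R) b len o = 0 := by
  obtain ⟨g, hg, eg⟩ := hI _ (rel_ok hn hn' hp hw hv hL h)
  have := Phi_sub (φ := phi ρ v R) pV hp hw e
  rwa [Phi_addv pV hp hw, Phi_zero, zero_add, one_smul, ← loc_ok hn hn' hv eg e₁, mem_stab.1 hg,
    sub_self] at this

theorem In.conj {t s s' : ℕ} {g : Al n} (hg : Rep g t) {x : V} (h : In (stab ρ x) s')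
    (e : eqB n (fun y => dg 4 s (dg 4 t y)) (fun y => dg 4 t (dg 4 s' y)) = true) :
    In (stab ρ (ρ g x)) s := by
  obtain ⟨a, ha, ea⟩ := h
  refine ⟨g * a * g⁻¹, ?_, fun y => ?_⟩
  · rw [mem_stab, ← Module.End.mul_apply, ← map_mul, inv_mul_cancel_right, map_mul,
      Module.End.mul_apply, mem_stab.1 ha]
  · obtain ⟨x, rfl⟩ := (g : Perm (Fin n)).surjective y
    rw [hg x, eqB_spec e x, ← ea, ← hg]
    simp

/-- `t` conjugates elements of `L'` onto `L` -/
def cjOK (n t : ℕ) (L L' : List ℕ) : Bool := L.all fun s => L'.any fun s' =>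
  eqB n (fun y => dg 4 s (dg 4 t y)) (fun y => dg 4 t (dg 4 s' y))

theorem InAll.conj {t : ℕ} {L L' : List ℕ} {g : Al n} (hg : Rep g t) {x : V}
    (h : InAll (stab ρ x) L') (e : cjOK n t L L' = true) : InAll (stab ρ (ρ g x)) L :=
  fun s hs => by
    obtain ⟨s', hs', e'⟩ := List.any_eq_true.1 (List.all_eq_true.1 e s hs)
    exact (h s' hs').conj hg e'

theorem Z.conj {t : ℕ} {L L' : List ℕ} (hZ : Z ρ L) (ht : In (⊤ : Subgroup (Al n)) t)
    (e : cjOK n t L L' = true) : Z ρ L' := fun x hx => by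
  obtain ⟨g, -, hg⟩ := ht
  have := congrArg (ρ g⁻¹) (hZ _ (hx.conj hg e))
  rwa [← Module.End.mul_apply, ← map_mul, inv_mul_cancel, map_one, map_zero] at this

theorem Z.exp (hn : n ≤ 10) {L S : List ℕ} {ws : List (List ℕ)} (hZ : Z ρ S)
    (e : expOK n L S ws = true) : Z ρ L := fun x hx => hZ x (hx.exp hn e)

theorem Z.pstep [Fact p.Prime] (hn : n ≤ 10) {c : ℕ} {L : List ℕ} (hZ : Z ρ (c :: L))
    (hc : In (⊤ : Subgroup (Al n)) c) (e : cjOK n c L L = true) {u : List ℕ}
    (e' : eqB n (ev (wd [c] (List.replicate p 0))) (ev (wd L u)) = true) : Z ρ L := by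
  obtain ⟨g, -, hg⟩ := hc
  have key : ∀ k x, InAll (stab ρ x) L →
      ((ρ g - 1 : Module.End (ZMod p) V) ^ k : Module.End (ZMod p) V) x = 0 → x = 0 := by
    intro k
    induction k with
    | zero => intro x _ h; exact h
    | succ k ih =>
      intro x hx h
      rw [pow_succ, Module.End.mul_apply] at h
      have h1 : ρ g x - x = 0 := ih _ (fun s hs => by
        obtain ⟨a, ha, ea⟩ := hx s hs
        obtain ⟨a', ha', ea'⟩ := hx.conj hg e s hs
        obtain rfl := ea.uniq ea'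
        exact ⟨a, by
          rw [mem_stab] at ha ha' ⊢
          rw [map_sub, ha, ha'], ea⟩) h
      refine hZ x fun s hs => ?_
      rcases List.mem_cons.1 hs with rfl | hs
      exacts [⟨g, sub_eq_zero.1 h1, hg⟩, hx s hs]
  intro x hx
  by_contra h0
  have : Nontrivial V := nontrivial_of_ne x 0 h0
  have : CharP (Module.End (ZMod p) V) p :=
    charP_of_injective_algebraMap (algebraMap (ZMod p) _).injective p
  refine h0 (key p x hx ?_)
  obtain ⟨a, ha, ea⟩ := evw hn hx u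
  have hp : ∀ k (y : Fin n), (((g ^ k : Al n) : Perm (Fin n)) y : ℕ) =
      ev (wd [c] (List.replicate k 0)) y := by
    intro k y
    induction k with
    | zero => rfl
    | succ k ih =>
      rw [pow_succ']
      change (((g : Perm (Fin n)) (((g ^ k : Al n) : Perm (Fin n)) y) : Fin n) : ℕ) =
        dg 4 c (ev (wd [c] (List.replicate k 0)) y)
      rw [hg, ih]
  have : g ^ p = a := Subtype.ext (Equiv.ext fun y => Fin.ext
    ((hp p y).trans ((eqB_spec e' y).trans (ea y).symm)))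
  rw [sub_pow_char_of_commute _ (Commute.one_right _), one_pow, ← map_pow, this,
    LinearMap.sub_apply, mem_stab.1 ha, Module.End.one_apply, sub_self]

theorem comm_lt {G : Type*} [Group G] {H : Subgroup G} (_ : Group.IsSolvable H) (hH : H ≠ ⊥) :
    ⁅H, H⁆ < H := by
  rw [← nontrivial_iff_ne_bot] at hH
  rw [← H.range_subtype, MonoidHom.range_eq_map, ← map_commutator, map_subtype_lt_map_subtype]
  exact Group.IsSolvable.commutator_lt_top_of_nontrivial H

/-- `c = ⁅u, v⁆` -/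
def cmOK (n : ℕ) (L : List ℕ) (c : ℕ) (q : List ℕ × List ℕ) : Bool :=
  eqB n (fun x => dg 4 c (ev (wd L q.2) (ev (wd L q.1) x))) fun x => ev (wd L q.1) (ev (wd L q.2) x)

theorem nosolv (hn : n ≤ 10) (hρ : NoFix ρ) {L : List ℕ} {qs : List (List ℕ × List ℕ)}
    (e : all2 (cmOK n L) L qs = true) (e' : (L.all fun c => eqB n (dg 4 c) (dg 4 idc)) = false) :
    Z ρ L := fun x hx => by
  let K : Subgroup (Al n) := closure {g | ∃ c ∈ L, Rep g c}
  have hK : InAll K L := fun c hc => by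
    obtain ⟨g, -, hg⟩ := hx c hc
    exact ⟨g, subset_closure ⟨c, hc, hg⟩, hg⟩
  refine hρ K (fun hs => ?_) x fun g hg => mem_stab.1 ((closure_le _).2 ?_ hg)
  · refine (comm_lt hs fun hb => ?_).not_ge ((closure_le _).2 ?_)
    · refine Bool.false_ne_true (e'.symm.trans (List.all_eq_true.2 fun c hc => ?_))
      obtain ⟨g, hg, eg⟩ := hK c hc
      rw [hb, mem_bot] at hg
      subst hg
      have : ∀ m ≤ n, allB m (fun x => Nat.beq (dg 4 c x) (dg 4 idc x)) = true := by
        intro m hm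
        induction m with
        | zero => rfl
        | succ m ih =>
          change (Nat.beq (dg 4 c m) (dg 4 idc m) && allB m _) = true
          rw [ih (by omega), Bool.and_true, Nat.beq_eq]
          exact (eg ⟨m, hm⟩).symm.trans (rep_one hn ⟨m, hm⟩)
      exact this n le_rfl
    · rintro g ⟨c, hc, hg⟩
      obtain ⟨q, hq⟩ := all2_spec e c hc
      obtain ⟨a, ha, ea⟩ := evw hn hK q.1
      obtain ⟨b, hb, eb⟩ := evw hn hK q.2
      have : g * b * a = a * b := Subtype.ext (Equiv.ext fun y => Fin.ext (by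
        have := eqB_spec hq y
        simp only [← ea, ← eb] at this
        exact (hg _).trans this))
      rw [show g = ⁅a, b⁆ by rw [commutatorElement_def, ← this]; group]
      exact commutator_mem_commutator ha hb
  · rintro g ⟨c, hc, hg⟩
    obtain ⟨a, ha, ea⟩ := hx c hc
    exact hg.uniq ea ▸ ha

end

end Cfsg.Lib.AltSec
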