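import Cfsg.Agent.AltSec.Red
import Mathlib.GroupTheory.SpecificGroups.Alternating.Centralizer
import Mathlib.GroupTheory.SpecificGroups.Alternating.Simple

/-!
# The embedding `A_m × A_k → A_{m+k}` and the reduction to two module statements
-/

set_option autoImplicit false

namespace Cfsg.Lib.AltSec

open Subgroup Equiv

universe u

/-- alternating groups -/
abbrev Al (n : ℕ) : Type := alternatingGroup (Fin n)

/-- `S_m × S_k → S_{m+k}` -/
def prP (m k : ℕ) : Perm (Fin m) × Perm (Fin k) →* Perm (Fin (m + k)) :=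
  (finSumFinEquiv.permCongrHom).toMonoidHom.comp (Perm.sumCongrHom _ _)

/-- `A_m × A_k → A_{m+k}` -/
def pr (m k : ℕ) : Al m × Al k →* Al (m + k) :=
  ((prP m k).comp ((Subgroup.subtype _).prodMap (Subgroup.subtype _))).codRestrict _ fun g => by
    have h1 := Perm.mem_alternatingGroup.1 g.1.2
    have h2 := Perm.mem_alternatingGroup.1 g.2.2
    rw [Perm.mem_alternatingGroup]
    change Perm.sign (finSumFinEquiv.permCongr (Perm.sumCongr g.1.1 g.2.1)) = 1
    rw [Perm.sign_permCongr, Perm.sign_sumCongr, h1, h2, mul_one]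

theorem pr_inj (m k : ℕ) : Function.Injective (pr m k) := fun a b e => by
  have h := Perm.sumCongrHom_injective
    (finSumFinEquiv.permCongrHom.injective (congrArg Subtype.val e))
  exact Prod.ext (Subtype.ext (congrArg Prod.fst h)) (Subtype.ext (congrArg Prod.snd h))

theorem not_solv5 : ¬ Group.IsSolvable (Al 5) := fun h => by
  have := alternatingGroup.isSimpleGroup (α := Fin 5) (by simp)
  have h1 := IsSimpleGroup.comm_iff_isSolvable.2 h
  have h2 := alternatingGroup.center_eq_bot (α := Fin 5) (by simp)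
  have h3 : center (Al 5) = ⊤ := eq_top_iff.2 fun x _ => mem_center_iff.2 fun g => h1 g x
  exact bot_ne_top (h2.symm.trans h3)

theorem not_solv_range {A : Type*} [Group A] (f : Al 5 →* A) (hf : Function.Injective f) :
    ¬ Group.IsSolvable f.range := fun _ =>
  not_solv5 (Group.isSolvable_of_isSolvable_injective (f := f.rangeRestrict)
    fun _ _ e => hf (congrArg Subtype.val e))

theorem card_Al5 : Nat.card (Al 5) = 60 := by
  have := two_mul_nat_card_alternatingGroup (α := Fin 5)
  rw [Nat.card_perm, Nat.card_eq_fintype_card (α := Fin 5), Fintype.card_fin] at this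
  have h : Nat.factorial 5 = 120 := by decide
  change 2 * Nat.card (Al 5) = _ at this
  omega

theorem no_sec {p m d : ℕ} (hp : p.Prime) (hm : p ∣ Nat.card (Al m))
    (hA : Fx.{u} p (Al (m + 5)) ∨ p.Coprime 60) (hd : m + 5 ≤ d) {H : Type u} [Group H] [Finite H]
    (h : Hyp p H) (π : H →* Al d) (hπ : Function.Surjective π) : False := by
  have := Fact.mk hp
  obtain ⟨k, rfl⟩ := Nat.exists_eq_add_of_le hd
  let ι := (pr (m + 5) k).comp (MonoidHom.inl _ _)
  have hι : Function.Injective ι := (pr_inj _ _).comp (Prod.mk_left_injective 1)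
  obtain ⟨H', _, _, π', h', hπ', hk⟩ := red hp _ (ι.range.comap π) rfl
    (h.of_map _ (subtype_injective _)) ((MonoidHom.ofInjective hι).symm.toMonoidHom.comp
      (π.subgroupComap ι.range)) ((MonoidHom.ofInjective hι).symm.surjective.comp
      (π.subgroupComap_surjective_of_surjective _ hπ))
  obtain ⟨x, hx⟩ := exists_prime_orderOf_dvd_card' p hm
  let κ := (pr m 5).comp (MonoidHom.inr _ _)
  have hκ : Function.Injective κ := (pr_inj _ _).comp (Prod.mk_right_injective 1)
  have h1 : pr m 5 (x, 1) ∉ center (Al (m + 5)) := fun hc => by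
    rw [alternatingGroup.center_eq_bot (by simp), mem_bot, ← map_one (pr m 5)] at hc
    rw [show x = 1 from congrArg Prod.fst (pr_inj _ _ hc), orderOf_one] at hx
    exact hp.one_lt.ne hx
  have h2 : pr m 5 (x, 1) ^ p ^ 1 = 1 := by
    rw [← map_pow, Prod.pow_mk, pow_one, one_pow, ← hx, pow_orderOf_eq_one]; exact map_one _
  have h3 : ∀ y ∈ κ.range, Commute (pr m 5 (x, 1)) y := by
    rintro _ ⟨y, rfl⟩
    exact Commute.map (Prod.ext (by simp) (by simp) : Commute ((x, 1) : Al m × Al 5) (1, y)) _
  refine not_solv_range κ hκ (hA.elim (fun hA => mod_case hp hA h' hπ' hk h1 h2 h3)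
    fun hA => cop_case hp h' hπ' hk h1 h2 h3 ?_)
  rwa [← Nat.card_congr (MonoidHom.ofInjective hκ).toEquiv, card_Al5]

theorem dvd_card_Al {p m : ℕ} (hm : 2 ≤ m) (h : 2 * p ∣ m.factorial) : p ∣ Nat.card (Al m) := by
  have : Nontrivial (Fin m) := Fin.nontrivial_iff_two_le.2 hm
  have := two_mul_nat_card_alternatingGroup (α := Fin m)
  rw [Nat.card_perm, Nat.card_eq_fintype_card (α := Fin m), Fintype.card_fin] at this
  exact Nat.dvd_of_mul_dvd_mul_left two_pos (this ▸ h)

theorem bound (h2 : Fx.{u} 2 (Al 9)) (h5 : Fx.{u} 5 (Al 10)) {p d : ℕ} (hp : p.Prime) (hp3 : p ≠ 3)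
    {H : Type u} [Group H] [Finite H] (h : Hyp p H) (π : H →* Al d) (hπ : Function.Surjective π) :
    d ≤ p + 4 + (if p = 2 then 2 else 0) := by
  by_contra hd
  by_cases e2 : p = 2
  · subst e2
    exact no_sec (m := 4) hp (dvd_card_Al (by norm_num) (by decide)) (Or.inl h2)
      (by simp at hd; omega) h π hπ
  rw [if_neg e2] at hd
  refine no_sec (m := p) hp (dvd_card_Al hp.two_le ?_) ?_ (by omega) h π hπ
  · exact ((Nat.coprime_primes Nat.prime_two hp).2 (Ne.symm e2)).mul_dvd_of_dvd_of_dvd
      (Nat.dvd_factorial two_pos hp.two_le) (Nat.dvd_factorial hp.pos le_rfl)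
  by_cases e5 : p = 5
  · subst e5; exact Or.inl h5
  · refine Or.inr ?_
    rw [show 60 = 2 ^ 2 * 3 * 5 by norm_num]
    exact ((((Nat.coprime_primes hp Nat.prime_two).2 e2).pow_right 2).mul_right
      ((Nat.coprime_primes hp Nat.prime_three).2 hp3)).mul_right
      ((Nat.coprime_primes hp Nat.prime_five).2 e5)

end Cfsg.Lib.AltSec
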