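import Cfsg.Agent.FT.BG1.Coprime
import Cfsg.Agent.Solv.ElemAb

/-!
# Groups whose non-central `p`-elements have solvable centralisers: reduction to modules
-/

set_option autoImplicit false

namespace Cfsg.Lib.AltSec

open Subgroup Cfsg.Lib.Solv
open scoped commutatorElement

universe u

/-- non-central `p`-elements have solvable centralisers -/
def Hyp (p : ℕ) (G : Type*) [Group G] : Prop :=
  ∀ x : G, x ∉ center G → (∃ k, x ^ p ^ k = 1) → Group.IsSolvable (centralizer ({x} : Set G))

/-- no non-solvable subgroup fixes a non-zero vector -/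
def NoFix {k A V : Type*} [CommRing k] [Group A] [AddCommGroup V] [Module k V]
    (ρ : Representation k A V) : Prop :=
  ∀ L : Subgroup A, ¬ Group.IsSolvable L → ∀ v, (∀ g ∈ L, ρ g v = v) → v = 0

/-- every non-zero module has a non-zero vector fixed by a non-solvable subgroup -/
def Fx (p : ℕ) (A : Type) [Group A] : Prop :=
  ∀ (V : Type u) [AddCommGroup V] [Module (ZMod p) V] [Finite V] (ρ : Representation (ZMod p) A V),
    NoFix ρ → ∀ v : V, v = 0

variable {p : ℕ} {G : Type*} [Group G]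

theorem solv_of_le {K L : Subgroup G} (h : K ≤ L) [Group.IsSolvable L] : Group.IsSolvable K :=
  Group.isSolvable_of_isSolvable_injective (inclusion_injective h)

theorem solv_map {G' : Type*} [Group G'] (f : G →* G') (K : Subgroup G) [Group.IsSolvable K] :
    Group.IsSolvable (K.map f) := Group.isSolvable_of_surjective (f.subgroupMap_surjective K)

theorem Hyp.of_map {G' : Type*} [Group G'] (h : Hyp p G') (f : G →* G')
    (hf : Function.Injective f) : Hyp p G := fun x hx ⟨k, hk⟩ => by
  have := h (f x) (fun hc => hx (mem_center_iff.2 fun g => hf (by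
    rw [map_mul, map_mul, mem_center_iff.1 hc]))) ⟨k, by rw [← map_pow, hk, map_one]⟩
  exact Group.isSolvable_of_isSolvable_injective (f := (f.comp (Subgroup.subtype _)).codRestrict
    (centralizer ({f x} : Set G')) fun g => mem_centralizer_singleton_iff.2 (by
      have := congrArg f (mem_centralizer_singleton_iff.1 g.2)
      simpa using this)) fun a b e => Subtype.ext (hf (congrArg Subtype.val e))

theorem Hyp.quot [Finite G] (h : Hyp p G) (Q : Subgroup G) [Q.Normal]
    (hQ : (Nat.card Q).Coprime p) : Hyp p (G ⧸ Q) := by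
  intro y hy ⟨k, hk⟩
  obtain ⟨x0, rfl⟩ := QuotientGroup.mk'_surjective Q y
  obtain ⟨a, ha1, ha2⟩ := Nat.chineseRemainder (hQ.pow_right k) 0 1
  have h1 : (x0 ^ a) ^ p ^ k = 1 := by
    obtain ⟨b, rfl⟩ := (Nat.modEq_zero_iff_dvd).1 ha1
    have h2 : x0 ^ p ^ k ∈ Q := by
      rw [← QuotientGroup.eq_one_iff, QuotientGroup.mk_pow]; exact hk
    have h3 := congrArg Subtype.val (pow_card_eq_one' (x := (⟨_, h2⟩ : Q)))
    rw [← pow_mul, mul_comm, pow_mul, pow_mul]
    rw [show (x0 ^ p ^ k) ^ Nat.card Q = 1 from h3, one_pow]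
  have h2 : QuotientGroup.mk' Q (x0 ^ a) = QuotientGroup.mk' Q x0 := by
    rw [map_pow, pow_eq_pow_of_modEq ha2 hk, pow_one]
  rw [← h2] at hy ⊢
  generalize x0 ^ a = x at h1 hy
  have := h x (fun hc => hy (mem_center_iff.2 fun g => by
    obtain ⟨g, rfl⟩ := QuotientGroup.mk'_surjective Q g
    rw [← map_mul, ← map_mul, mem_center_iff.1 hc])) ⟨k, h1⟩
  have h3 := FT.coprime_map_cent (QuotientGroup.mk' Q) (A := zpowers x) (H := ⊤)
    (by rw [normalizer_eq_top]; exact le_top) (by
      rw [top_inf_eq, QuotientGroup.ker_mk', Nat.card_zpowers]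
      exact (hQ.pow_right k).coprime_dvd_right (orderOf_dvd_of_pow_eq_one h1))
    (Or.inl inferInstance)
  rw [top_inf_eq, map_top_of_surjective _ (QuotientGroup.mk'_surjective Q), top_inf_eq,
    MonoidHom.map_zpowers, zpowers_eq_closure, zpowers_eq_closure, centralizer_closure,
    centralizer_closure] at h3
  rw [← h3]
  exact solv_map _ _

theorem red (hp : p.Prime) {A : Type*} [Group A] (n : ℕ) : ∀ (H : Type u) [Group H] [Finite H],
    Nat.card H = n → Hyp p H → ∀ π : H →* A, Function.Surjective π →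
    ∃ (H' : Type u) (_ : Group H') (_ : Finite H') (π' : H' →* A),
      Hyp p H' ∧ Function.Surjective π' ∧ IsPGroup p π'.ker := by
  induction n using Nat.strong_induction_on with | _ n ih => ?_
  intro H _ _ hn h π hπ
  have := Fact.mk hp
  by_cases hk : IsPGroup p π.ker
  · exact ⟨H, _, inferInstance, π, h, hπ, hk⟩
  obtain ⟨q, hq, hqd, hqp⟩ : ∃ q, q.Prime ∧ q ∣ Nat.card π.ker ∧ q ≠ p := by
    by_contra hc
    push Not at hc
    exact hk (IsPGroup.of_card (Nat.eq_prime_pow_of_unique_prime_dvd Nat.card_pos.ne'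
      fun hq hd => hc _ hq hd))
  have := Fact.mk hq
  obtain ⟨Q⟩ : Nonempty (Sylow q π.ker) := inferInstance
  have h1 := Q.normalizer_sup_eq_top
  set Q' := (Q : Subgroup π.ker).map π.ker.subtype with hQ'
  by_cases h2 : normalizer (Q' : Set H) = ⊤
  · have := normalizer_eq_top_iff.1 h2
    have h3 : IsPGroup q Q' := Q.isPGroup'.map _
    obtain ⟨m, hm⟩ := h3.exists_card_eq
    have h4 : Q' ≠ ⊥ := fun e => Q.ne_bot_of_dvd_card hqd
      ((map_eq_bot_iff_of_injective _ π.ker.subtype_injective).1 e)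
    refine ih _ ?_ (H ⧸ Q') rfl (h.quot Q' ?_) (QuotientGroup.lift Q' π (map_subtype_le _)) ?_
    · rw [← hn, Q'.card_eq_card_quotient_mul_card_subgroup]
      exact lt_mul_of_one_lt_right Nat.card_pos (Q'.one_lt_card_iff_ne_bot.2 h4)
    · rw [hm]; exact ((Nat.coprime_primes hq hp).2 hqp).pow_left _
    · exact fun a => let ⟨x, hx⟩ := hπ a; ⟨x, hx⟩
  · refine ih _ ?_ (normalizer (Q' : Set H)) rfl (h.of_map _ (subtype_injective _))
      (π.comp (Subgroup.subtype _)) fun a => ?_
    · rw [← hn, ← card_top (G := H)]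
      exact card_lt_of_lt (lt_top_iff_ne_top.2 h2)
    · obtain ⟨x, rfl⟩ := hπ a
      obtain ⟨y, hy, z, hz, rfl⟩ := mem_sup_of_normal_right.1 (h1.ge (mem_top x))
      exact ⟨⟨y, hy⟩, by simp [MonoidHom.mem_ker.1 hz]⟩

theorem Hyp.key (h : Hyp p G) {v : G} (hv : ∃ k, v ^ p ^ k = 1) (h1 : v ∉ center G)
    {Y : Subgroup G} (hY : ∀ y ∈ Y, ⁅v, y⁆ ∈ center G) : Group.IsSolvable Y := by
  have := h v h1 hv
  let f : Y →* center G := MonoidHom.mk' (fun y => ⟨_, hY y y.2⟩) fun a b => Subtype.ext (by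
    have := mem_center_iff.1 (hY b b.2) a
    simp only [coe_mul, commutatorElement_def] at this ⊢
    calc _ = v * a * v⁻¹ * (a : G)⁻¹ * (a * (v * b * v⁻¹ * (b : G)⁻¹)) * (a : G)⁻¹ := by group
      _ = _ := by rw [this]; group)
  have : Group.IsSolvable f.ker := Group.isSolvable_of_isSolvable_injective
    (f := (Y.subtype.comp f.ker.subtype).codRestrict (centralizer ({v} : Set G)) fun y =>
      mem_centralizer_singleton_iff.2
        (commutatorElement_eq_one_iff_mul_comm.1 (congrArg Subtype.val y.2)).symm)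
    fun a b e => Subtype.ext (Subtype.ext
      (congrArg (fun w : centralizer ({v} : Set G) => w.1) e))
  have : Group.IsSolvable (center G) := Group.isSolvable_of_comm mul_comm'
  exact Group.isSolvable_of_ker_le_range f.ker.subtype f (range_subtype _).ge

variable {A : Type} [Group A] {H : Type u} [Group H] [Finite H] {π : H →* A}

omit [Finite H] in
theorem solv_of_comap (hπ : Function.Surjective π) {L : Subgroup A}
    (h : Group.IsSolvable (L.comap π)) : Group.IsSolvable L :=
  map_comap_eq_self_of_surjective hπ L ▸ solv_map π (L.comap π)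

omit [Finite H] in
theorem not_center (hπ : Function.Surjective π) {x : H} (hx : π x ∉ center A) : x ∉ center H :=
  fun hc => hx (mem_center_iff.2 fun g => by
    obtain ⟨g, rfl⟩ := hπ g
    rw [← map_mul, ← map_mul, mem_center_iff.1 hc])

omit [Finite H] in
theorem pel (hk : IsPGroup p π.ker) {x : H} {k : ℕ} (hx : π x ^ p ^ k = 1) : ∃ l, x ^ p ^ l = 1 := by
  obtain ⟨l, hl⟩ := hk ⟨x ^ p ^ k, by rw [MonoidHom.mem_ker, map_pow, hx]⟩
  exact ⟨k + l, by rw [pow_add, pow_mul]; exact congrArg Subtype.val hl⟩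

theorem mod_case (hp : p.Prime) (hA : Fx.{u} p A) (h : Hyp p H) (hπ : Function.Surjective π)
    (hk : IsPGroup p π.ker) {x : A} (hx : x ∉ center A) {k : ℕ} (hxk : x ^ p ^ k = 1)
    {Y : Subgroup A} (hY : ∀ y ∈ Y, Commute x y) : Group.IsSolvable Y := by
  have := Fact.mk hp
  by_cases hc : π.ker ≤ center H
  · obtain ⟨x, rfl⟩ := hπ x
    refine solv_of_comap hπ (h.key (pel hk hxk) (not_center hπ hx) fun y hy => hc ?_)
    rw [MonoidHom.mem_ker, map_commutatorElement, (hY _ hy).commutator_eq]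
  exfalso
  let f := QuotientGroup.mk' (center H)
  let N := π.ker.map f
  have hN : N.Normal := Normal.map inferInstance f (QuotientGroup.mk'_surjective _)
  let M : Subgroup (H ⧸ center H) :=
    { carrier := {m | m ∈ N ⊓ centralizer (N : Set (H ⧸ center H)) ∧ m ^ p = 1}
      one_mem' := ⟨one_mem _, one_pow _⟩
      mul_mem' := fun {a b} ha hb => ⟨mul_mem ha.1 hb.1, by
        rw [Commute.mul_pow (mem_centralizer_iff.1 hb.1.2 a ha.1.1), ha.2, hb.2, one_mul]⟩
      inv_mem' := fun {a} ha => ⟨inv_mem ha.1, by rw [inv_pow, ha.2, inv_one]⟩ }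
  have hM : M.Normal := ⟨fun m hm g => ⟨Normal.conj_mem inferInstance m hm.1 g, by
    rw [conj_pow, hm.2, mul_one, mul_inv_cancel]⟩⟩
  have : ElemAb p M := ⟨fun a b => Subtype.ext (mem_centralizer_iff.1 b.2.1.2 a a.2.1.1),
    fun a => Subtype.ext a.2.2⟩
  let φ := π.liftOfSurjective hπ ⟨(MulAut.conjNormal (H := M)).comp f, fun y hy =>
    MulEquiv.ext fun m => Subtype.ext (mul_inv_eq_of_eq_mul
      (mem_centralizer_iff.1 m.2.1.2 _ (mem_map_of_mem f hy)))⟩
  have hφ : ∀ y (m : M), (φ (π y) m : H ⧸ center H) = f y * m * (f y)⁻¹ := fun y m => by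
    rw [MonoidHom.liftOfRightInverse_comp_apply]; rfl
  have h0 := hA (Vec p M) (Vec.rep p φ) fun L hL v hv => by
    by_contra h1
    obtain ⟨y, hy, e⟩ := (Vec.toMul v).2.1.1
    refine hL (solv_of_comap hπ (h.key (v := y) (pel hk (k := 0) (by simpa using hy))
      (fun hc => h1 (Vec.toMul.injective (Subtype.ext
        (e.symm.trans ((QuotientGroup.eq_one_iff y).2 hc))))) fun g hg => ?_))
    rw [← QuotientGroup.eq_one_iff]
    change f _ = 1
    have h2 : f g * (Vec.toMul v).1 * (f g)⁻¹ = (Vec.toMul v).1 :=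
      (hφ g (Vec.toMul v)).symm.trans (congrArg (fun w => (Vec.toMul w).1) (hv _ hg))
    rw [map_commutatorElement, commutatorElement_eq_one_iff_mul_comm, e, eq_comm,
      ← mul_inv_eq_iff_eq_mul, h2]
  have hNp : IsPGroup p N := hk.map f
  have : Nontrivial N := (nontrivial_iff_ne_bot N).2 fun e => hc (by
    rwa [Subgroup.map_eq_bot_iff, QuotientGroup.ker_mk'] at e)
  have := hNp.center_nontrivial
  obtain ⟨n, hn0, hn⟩ := (hNp.to_subgroup (center N)).nontrivial_iff_card.1 this
  obtain ⟨z, hz⟩ := exists_prime_orderOf_dvd_card' (G := center N) p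
    (hn ▸ dvd_pow_self p hn0.ne')
  have h3 := h0 (Vec.ofMul p ⟨z.1.1, ⟨z.1.2, mem_centralizer_iff.2 fun g hg =>
    congrArg Subtype.val (mem_center_iff.1 z.2 ⟨g, hg⟩)⟩,
      congrArg (fun w : center N => w.1.1) (hz ▸ pow_orderOf_eq_one z)⟩)
  rw [show z = 1 from Subtype.ext (Subtype.ext (congrArg (fun w => (Vec.toMul w).1) h3)),
    orderOf_one] at hz
  exact hp.one_lt.ne hz

theorem cop_case (hp : p.Prime) (h : Hyp p H) (hπ : Function.Surjective π)
    (hk : IsPGroup p π.ker) {x : A} (hx : x ∉ center A) {k : ℕ} (hxk : x ^ p ^ k = 1)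
    {Y : Subgroup A} (hY : ∀ y ∈ Y, Commute x y) (hc : p.Coprime (Nat.card Y)) :
    Group.IsSolvable Y := by
  have := Fact.mk hp
  have hle : π.ker ≤ Y.comap π := fun y hy => by
    rw [mem_comap, MonoidHom.mem_ker.1 hy]; exact one_mem _
  have hi : (π.ker.subgroupOf (Y.comap π)).index = Nat.card Y := by
    rw [← relIndex, relIndex_ker, map_comap_eq_self_of_surjective hπ]
  obtain ⟨m, hm⟩ := hk.exists_card_eq
  obtain ⟨L, hL⟩ := exists_right_complement'_of_coprime (N := π.ker.subgroupOf (Y.comap π)) (by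
    rw [hi, Nat.card_congr (subgroupOfEquivOfLe hle).toEquiv, hm]; exact hc.pow_left _)
  have h1 : (L.map (Y.comap π).subtype).map π = Y := le_antisymm
    (map_le_iff_le_comap.2 (map_subtype_le _)) fun y hy => by
      obtain ⟨y, rfl⟩ := hπ y
      obtain ⟨⟨a, b⟩, e⟩ := hL.2 ⟨y, hy⟩
      refine ⟨b.1.1, mem_map_of_mem _ b.2, ?_⟩
      rw [← show a.1.1 * b.1.1 = y from congrArg Subtype.val e, map_mul,
        show π a.1.1 = 1 from a.2, one_mul]
  have h2 := FT.coprime_map_cent π (A := L.map (Y.comap π).subtype) (H := (zpowers x).comap π)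
    (fun g hg => mem_normalizer_iff.2 fun y => by
      have h3 := hY _ (h1.le (mem_map_of_mem π hg))
      simp only [mem_comap, map_mul, map_inv]
      exact mem_normalizer_iff.1 (centralizer_le_normalizer _ (mem_centralizer_iff.2 (by
        rintro _ ⟨n, rfl⟩; exact (h3.zpow_left n).eq))) _) (by
      rw [card_map_of_injective (subtype_injective _), ← hL.symm.index_eq_card, hi]
      exact (hm ▸ hc.pow_left m).coprime_dvd_left (card_dvd_of_le inf_le_right))
    (Or.inr (have := hk.isNilpotent; solv_of_le inf_le_right))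
  obtain ⟨y, hy, rfl⟩ := h2.ge (show x ∈ _ from ⟨by
    rw [map_comap_eq_self_of_surjective hπ]; exact mem_zpowers x, by
    rw [h1]; exact mem_centralizer_iff.2 fun g hg => (hY g hg).eq.symm⟩)
  have := h y (not_center hπ hx) (pel hk hxk)
  have := solv_of_le (L := centralizer {y}) fun g hg =>
    mem_centralizer_singleton_iff.2 (mem_centralizer_iff.1 hy.2 g hg)
  exact h1 ▸ solv_map π _

end Cfsg.Lib.AltSec
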